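import Mathlib
import Cfsg.Agent.Lib.Helper60.SUG.Defs
import Cfsg.Agent.S2283

/-!
# Project SUG (S2412): package [N3]

`SU_3(q)`, `q ≥ 3`, is generated by two elements: a corollary of the landed statement S2283
(`SU_3(q)` is generated by two conjugate regular unipotent elements).
-/

set_option autoImplicit false

namespace Cfsg.Agent.Lib.Helper39.SUG

open Cfsg.Agent.Lib.Helper60.SUG

universe u

/-- [N3] `n = 3`, `q ≥ 3`. -/
theorem pkgN3 : PkgN3.{u} := by
  intro F _ _ q _ hF hq
  obtain ⟨u, g, _, h⟩ := Cfsg.Agent.S2283.result q hq hF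
  exact ⟨u, g * u * g⁻¹, h⟩

end Cfsg.Agent.Lib.Helper39.SUG
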